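import Mathlib

/-!
# A matrix lemma: two commuting integral projections with product of rank one
-/

namespace CF.H16

open Finset

variable {ι : Type*} [Fintype ι] [DecidableEq ι] {A C R : ι → ι → ℤ} {d : ι → ℤ}

omit [DecidableEq ι] in
theorem nm_rank_one (hs : ∀ i j, R i j = R j i) (h2 : ∀ i j, ∑ k, R i k * R k j = 16 * R i j)
    (ht : ∑ i, R i i = 16) {i₀ : ι} (h0 : R i₀ i₀ = 1) :
    ∃ d : ι → ℤ, d i₀ = 1 ∧ ∀ i j, R i j = d i * d j := by
  have h3 : ∀ j, ∑ k, (R j k - R i₀ j * R i₀ k) ^ 2 = 16 * R j j - 16 * (R i₀ j * R j i₀) := fun j => by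
    rw [sum_congr rfl fun k _ => show (R j k - R i₀ j * R i₀ k) ^ 2 = R j k * R k j -
      2 * R i₀ j * (R j k * R k i₀) + R i₀ j ^ 2 * (R i₀ k * R k i₀) by
        rw [hs k j, hs k i₀]; ring, sum_add_distrib, sum_sub_distrib, ← mul_sum, ← mul_sum, h2, h2, h2,
      h0, hs j i₀]
    ring
  have h4 : ∑ j, ∑ k, (R j k - R i₀ j * R i₀ k) ^ 2 = 0 := by
    simp only [h3, sum_sub_distrib, ← mul_sum, h2, ht, h0]
    norm_num
  refine ⟨R i₀, h0, fun i j => sub_eq_zero.1 (pow_eq_zero_iff two_ne_zero |>.1 ?_)⟩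
  exact (sum_eq_zero_iff_of_nonneg fun _ _ => sq_nonneg _).1 ((sum_eq_zero_iff_of_nonneg
    fun _ _ => sum_nonneg fun _ _ => sq_nonneg _).1 h4 i (mem_univ _)) j (mem_univ _)

theorem nm_even {x y : ℤ} (h : y * y = 1) : Even (x * x - x * y) := by
  rcases Int.eq_one_or_neg_one_of_mul_eq_one h with h | h <;> rw [h]
  · simpa [mul_sub] using Int.even_mul_pred_self x
  · simpa [mul_add] using Int.even_mul_succ_self x

theorem nm_nonneg {x y : ℤ} (h : y * y = 1) : 0 ≤ x * x - x * y := by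
  rcases Int.eq_one_or_neg_one_of_mul_eq_one h with h | h <;> rw [h] <;>
    nlinarith [Int.le_self_sq x, Int.le_self_sq (-x)]

theorem nm_one (hs : ∀ i j, A i j = A j i) (h2 : ∀ i j, ∑ k, A i k * A k j = 4 * A i j)
    (hd : ∀ i, ∑ k, A i k * d k = 4 * d i) {a : ι} {s : ℤ} (ha : d a = 2 * s) (hs1 : s * s = 1)
    (ho : ∀ k, k ≠ a → d k * d k = 1) (haa : A a a = 2) : False := by
  have h9 : ∀ k, Even (A k a) := fun k => by
    have h9 : Even (∑ m, (A k m * A m k - A k m * d m)) := by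
      rw [sum_sub_distrib, h2, hd]
      exact ⟨2 * A k k - 2 * d k, by ring⟩
    rw [← add_sum_erase _ _ (mem_univ a), Int.even_add] at h9
    have h10 := h9.2 (even_sum _ fun m hm => by
      rw [hs m k]
      exact nm_even (ho m (mem_erase.1 hm).1))
    rw [hs a k, ha] at h10
    simpa [parity_simps] using h10
  have h11 : 0 ≤ ∑ m ∈ univ.erase a, (A a m * A m a - d a * (A a m * d m)) := sum_nonneg fun m hm => by
    obtain ⟨c, hc⟩ := h9 m
    have h3 := ho m (mem_erase.1 hm).1
    have h4 : (s * d m) * (s * d m) = 1 := by linear_combination (d m * d m) * hs1 + h3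
    have := nm_nonneg (x := c) h4
    rw [hs a m, hc, ha]
    nlinarith
  rw [sum_erase_eq_sub (mem_univ a), sum_sub_distrib, ← mul_sum, h2, hd, haa, ha] at h11
  nlinarith

theorem nm_two (hs : ∀ i j, A i j = A j i) (h2 : ∀ i j, ∑ k, A i k * A k j = 4 * A i j)
    (hd : ∀ i, ∑ k, A i k * d k = 4 * d i) {a b : ι} (hab : a ≠ b) {s t : ℤ} (ha : d a = 2 * s)
    (hb : d b = 2 * t) (hs1 : s * s = 1) (ht1 : t * t = 1)
    (ho : ∀ k, k ≠ a → k ≠ b → d k * d k = 1) (haa : A a a = 2) (hbb : A b b = 2) :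
    A a b = 2 * s * t ∧ ∀ k, k ≠ a → k ≠ b → A a k = 0 := by
  have sp : ∀ f : ι → ℤ, ∑ k, f k = f a + f b + ∑ k ∈ (univ.erase a).erase b, f k := fun f => by
    rw [add_assoc, add_sum_erase _ _ (mem_erase.2 ⟨hab.symm, mem_univ b⟩),
      add_sum_erase _ _ (mem_univ a)]
  have hT : ∀ k ∈ (univ.erase a).erase b, d k * d k = 1 := fun k hk =>
    ho k (mem_erase.1 (mem_erase.1 hk).2).1 (mem_erase.1 hk).1
  have par : ∀ k, Even (A k a + A k b) := fun k => by
    have h9 : Even (∑ m, (A k m * A m k - A k m * d m)) := by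
      rw [sum_sub_distrib, h2, hd]
      exact ⟨2 * A k k - 2 * d k, by ring⟩
    rw [sp, Int.even_add] at h9
    have h10 := h9.2 (even_sum _ fun m hm => by
      rw [hs m k]
      exact nm_even (hT m hm))
    rw [hs a k, hs b k, ha, hb] at h10
    simpa [parity_simps] using h10
  have h2' : ∀ i j, ∑ k, A i k * A j k = 4 * A i j := fun i j =>
    (sum_congr rfl fun k _ => by rw [hs j k]).trans (h2 i j)
  have a1 := h2' a a
  have a2 := hd a
  have b1 := h2' b b
  have b2 := hd b
  have c1 := h2' a b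
  rw [sp] at a1 a2 b1 b2 c1
  simp only [haa, hbb, ha, hb, hs b a] at a1 a2 b1 b2 c1
  have a3 : 0 ≤ ∑ k ∈ (univ.erase a).erase b, A a k * A a k := sum_nonneg fun k _ => mul_self_nonneg _
  obtain ⟨c, hc⟩ := par a
  rw [haa] at hc
  have h5 : A a b = 0 ∨ A a b * A a b = 4 := by
    have h5 : A a b ≤ 2 := by nlinarith
    have h6 : -2 ≤ A a b := by nlinarith
    interval_cases A a b <;> omega
  rcases h5 with h5 | h5
  · exfalso
    have key : ∀ {x : ι} {r : ℤ}, r * r = 1 → ∑ k ∈ (univ.erase a).erase b, A x k * A x k = 4 →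
        ∑ k ∈ (univ.erase a).erase b, A x k * d k = 4 * r →
        ∀ k ∈ (univ.erase a).erase b, A x k = 0 ∨ A x k = r * d k := fun {x r} e1 e2 e3 k hk => by
      have e4 := (sum_eq_zero_iff_of_nonneg (s := (univ.erase a).erase b)
        (f := fun k => A x k * A x k - A x k * (r * d k)) fun k hk => nm_nonneg (by
          linear_combination (d k * d k) * e1 + hT k hk)).1 (by
            simp only [mul_left_comm _ r]
            rw [sum_sub_distrib, ← mul_sum, e2, e3]
            linear_combination -4 * e1) k hk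
      exact (mul_eq_zero.1 (show A x k * (A x k - r * d k) = 0 by linear_combination e4)).imp_right
        sub_eq_zero.1
    rw [h5] at a1 a2 b1 b2 c1
    have k1 := key (x := a) hs1 (by linarith) (by linarith)
    have k2 := key (x := b) ht1 (by linarith) (by linarith)
    have k3 : ∑ k ∈ (univ.erase a).erase b, A a k * A b k =
        s * t * ∑ k ∈ (univ.erase a).erase b, A a k * A a k := by
      rw [mul_sum]
      refine sum_congr rfl fun k hk => ?_
      have e1 := par k
      rw [hs k a, hs k b] at e1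
      have e2 := hT k hk
      rcases k1 k hk with e3 | e3 <;> rcases k2 k hk with e4 | e4 <;> rw [e3, e4] at e1 ⊢
      · ring
      · ring
      · exfalso
        rcases Int.eq_one_or_neg_one_of_mul_eq_one hs1 with h | h <;>
          rcases Int.eq_one_or_neg_one_of_mul_eq_one e2 with h' | h' <;>
          rw [h, h'] at e1 <;> norm_num at e1
      · linear_combination (-s * t * d k * d k) * hs1
    have k4 : s * t = 0 := by nlinarith
    have : (s * s) * (t * t) = 0 := by linear_combination (s * t) * k4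
    rw [hs1, ht1] at this
    omega
  · have k1 : ∀ k ∈ (univ.erase a).erase b, A a k = 0 := fun k hk => mul_self_eq_zero.1
      ((sum_eq_zero_iff_of_nonneg fun k _ => mul_self_nonneg (A a k)).1 (by linarith) k hk)
    rw [sum_eq_zero fun k hk => by rw [k1 k hk, zero_mul]] at a2
    exact ⟨by nlinarith, fun k h1 h2 => k1 k (by simp [h1, h2])⟩

theorem nine_mat (hA : ∀ i j, A i j = A j i) (hC : ∀ i j, C i j = C j i) (hR : ∀ i j, R i j = R j i)
    (hA2 : ∀ i j, ∑ k, A i k * A k j = 4 * A i j) (hC2 : ∀ i j, ∑ k, C i k * C k j = 4 * C i j)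
    (hAC : ∀ i j, ∑ k, A i k * C k j = R i j) (hAR : ∀ i j, ∑ k, A i k * R k j = 4 * R i j)
    (hCR : ∀ i j, ∑ k, C i k * R k j = 4 * R i j) (hR2 : ∀ i j, ∑ k, R i k * R k j = 16 * R i j)
    (tA : ∑ i, A i i = 16) (tC : ∑ i, C i i = 16) (tR : ∑ i, R i i = 16) (hp : ∀ i, 0 < R i i)
    (h1 : ∀ i, R i i < 4 * A i i) (h2 : ∀ i, R i i < 4 * C i i)
    (h3 : ∀ i, 0 < 16 - 4 * A i i - 4 * C i i + R i i) (ho : ∃ i, Odd (R i i)) (a : ι) :
    Odd (R a a) := by
  have hc : (8 : ℤ) ≤ Fintype.card ι := by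
    have := card_nsmul_le_sum univ (fun i => 16 - 4 * A i i - 4 * C i i + R i i) 1 fun i _ => h3 i
    simp only [sum_add_distrib, sum_sub_distrib, ← mul_sum, tA, tC, tR, sum_const, card_univ,
      nsmul_eq_mul] at this
    omega
  obtain ⟨i₀, h0⟩ : ∃ i, R i i = 1 := by
    by_contra! h
    obtain ⟨j, c, hj⟩ := ho
    have := sum_lt_sum (s := univ) (f := fun _ => (2 : ℤ)) (g := fun i => R i i)
      (fun i _ => by have := hp i; have := h i; omega)
      ⟨j, mem_univ _, by have := hp j; have := h j; omega⟩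
    rw [tR, sum_const, card_univ, nsmul_eq_mul] at this
    omega
  obtain ⟨d, h4, h⟩ := nm_rank_one hR hR2 tR h0
  simp only [h] at *
  have hA' : ∀ i, ∑ k, A i k * d k = 4 * d i := fun i => by simpa [h4] using hAR i i₀
  have hC' : ∀ i, ∑ k, C i k * d k = 4 * d i := fun i => by simpa [h4] using hCR i i₀
  have bd : ∀ S : Finset ι, ∑ k ∈ S, (d k * d k - 1) ≤ 8 := fun S => by
    have := sum_le_sum_of_subset_of_nonneg (subset_univ S) (f := fun k => d k * d k - 1)
      fun k _ _ => by have := hp k; omega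
    rw [sum_sub_distrib (s := univ), tR, sum_const, card_univ, nsmul_eq_mul] at this
    omega
  have ev : ∀ k, ¬ Odd (d k * d k) → (∃ s, d k = 2 * s ∧ s * s = 1) ∧ A k k = 2 ∧ C k k = 2 :=
    fun k hk => by
      have e1 := bd {k}
      rw [sum_singleton] at e1
      have e2 := hp k
      have e3 := h1 k
      have e4 := h2 k
      have e5 := h3 k
      have e6 : d k ≤ 3 := by nlinarith
      have e7 : -3 ≤ d k := by nlinarith
      have e8 : d k = 2 ∨ d k = -2 := by
        rw [Int.odd_iff] at hk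
        interval_cases d k <;> omega
      rcases e8 with e8 | e8 <;> rw [e8] at e3 e4 e5 ⊢
      · exact ⟨⟨1, rfl, rfl⟩, by omega, by omega⟩
      · exact ⟨⟨-1, rfl, rfl⟩, by omega, by omega⟩
  by_contra ha
  obtain ⟨⟨s, a1, a2⟩, a3, a4⟩ := ev a ha
  have a5 : d a * d a = 4 := by rw [a1]; linear_combination 4 * a2
  have od : ∀ k, Odd (d k * d k) → d k * d k = 1 := fun k hk => by
    have e1 := bd {a, k}
    rw [sum_pair (by rintro rfl; exact ha hk), a5] at e1
    have e6 : d k ≤ 2 := by nlinarith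
    have e7 : -2 ≤ d k := by nlinarith
    rw [Int.odd_iff] at hk
    interval_cases d k <;> omega
  by_cases hb : ∃ b, b ≠ a ∧ ¬ Odd (d b * d b)
  · obtain ⟨b, hb1, hb⟩ := hb
    obtain ⟨⟨t, b1, b2⟩, b3, b4⟩ := ev b hb
    have b5 : d b * d b = 4 := by rw [b1]; linear_combination 4 * b2
    have o2 : ∀ k, k ≠ a → k ≠ b → d k * d k = 1 := fun k e1 e2 => od k (by
      by_contra e3
      obtain ⟨⟨r, c1, c2⟩, -⟩ := ev k e3
      have c5 : d k * d k = 4 := by rw [c1]; linear_combination 4 * c2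
      have e4 := bd {k, a, b}
      rw [sum_insert (by simp [e1, e2]), sum_pair hb1.symm, a5, b5, c5] at e4
      omega)
    obtain ⟨e1, e2⟩ := nm_two hA hA2 hA' hb1.symm a1 b1 a2 b2 o2 a3 b3
    obtain ⟨e3, -⟩ := nm_two hC hC2 hC' hb1.symm a1 b1 a2 b2 o2 a4 b4
    have e4 := hAC a a
    rw [← add_sum_erase _ _ (mem_univ a), ← add_sum_erase _ _ (mem_erase.2 ⟨hb1, mem_univ b⟩),
      sum_eq_zero fun k hk => by
        rw [e2 k (mem_erase.1 (mem_erase.1 hk).2).1 (mem_erase.1 hk).1, zero_mul],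
      a3, a4, hC b a, e1, e3, a5] at e4
    have e5 : (s * s) * (t * t) = 0 := by linarith
    rw [a2, b2] at e5
    omega
  · push Not at hb
    exact nm_one hA hA2 hA' a1 a2 (fun k hk => od k (hb k hk)) a3

end CF.H16
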